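import Cfsg.Agent.Lib.PLocal.BaerSuzuki
import Cfsg.Agent.Lib.Frobenius.Basic
import Cfsg.Agent.Lib.PF.Main
import Cfsg.Agent.Lib.Inv.Basic

/-!
# Normal subgroups whose non-central elements have maximal centralisers
-/

set_option autoImplicit false

namespace Cfsg.Lib.Misc

open Subgroup Cfsg.Lib.Core
open scoped commutatorElement

variable {G : Type*} [Group G] [Finite G]

theorem index_prime_of_isCoatom {C : Subgroup G} [C.Normal] (h : IsCoatom C) : C.index.Prime := by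
  obtain ⟨q, hq, hd⟩ := Nat.exists_prime_and_dvd (mt index_eq_one.1 h.1)
  have := Fact.mk hq
  obtain ⟨x, hx⟩ := exists_prime_orderOf_dvd_card' (G := G ⧸ C) q hd
  have h1 : (zpowers x).comap (QuotientGroup.mk' C) = ⊤ := h.2 _ (lt_of_le_of_ne (QuotientGroup.le_comap_mk' C _) fun e => by
    obtain ⟨x, rfl⟩ := QuotientGroup.mk_surjective x
    rw [(QuotientGroup.eq_one_iff x).2 (e.ge (mem_zpowers _)), orderOf_one] at hx
    exact hq.one_lt.ne hx)
  rw [index, ← card_top, ← map_comap_eq_self_of_surjective (QuotientGroup.mk'_surjective C) ⊤, comap_top, ← h1,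
    map_comap_eq_self_of_surjective (QuotientGroup.mk'_surjective C), Nat.card_zpowers, hx]
  exact hq

variable {N : Subgroup G} [hN : N.Normal] (h : ∀ x ∈ N, x ∉ centralizer (N : Set G) → IsCoatom (centralizer ({x} : Set G)))
include h

theorem maxCent_chief (hna : ¬ N ≤ centralizer (N : Set G)) : ∃ (M : Subgroup G) (p : ℕ), p.Prime ∧
    IsChiefFactor M (N ⊓ centralizer (N : Set G)) ∧ M ≤ N ∧ (∀ a ∈ M, ∀ b ∈ M, ⁅a, b⁆ ∈ N ⊓ centralizer (N : Set G)) ∧
    ∀ a ∈ M, a ^ p ∈ N ⊓ centralizer (N : Set G) := by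
  set Z := N ⊓ centralizer (N : Set G)
  let π := QuotientGroup.mk' Z
  have hs := QuotientGroup.mk'_surjective Z
  have hk : ∀ x, π x = 1 ↔ x ∈ Z := QuotientGroup.eq_one_iff
  obtain ⟨V, hV, h0, h1, h2⟩ : ∃ V : Subgroup (G ⧸ Z), V.Normal ∧ V ≠ ⊥ ∧ V ≤ N.map π ∧ Group.IsSolvable V := by
    by_cases ho : Odd (Nat.card (N.map π))
    · exact ⟨_, hN.map π hs, fun e => hna fun x hx => ((hk x).1 (e.le ⟨x, hx, rfl⟩)).2, le_rfl, PF.isSolvable_of_odd _ ho⟩
    obtain ⟨_, ⟨t, ht, rfl⟩, t2⟩ := Inv.exists_involution_mem_of_even (Nat.not_odd_iff_even.1 ho)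
    have t3 := Inv.mul_self_of_orderOf t2
    by_cases hc : ∀ g, π (t * (g * t * g⁻¹)) ^ 4 = 1
    · have := hN.map π hs
      have := ((pCore_isPGroup 2 (G ⧸ Z)).to_le (inf_le_left (b := N.map π))).isNilpotent
      refine ⟨pCore 2 _ ⊓ N.map π, inferInstance, fun e => Inv.ne_one_of_orderOf t2 (e.le ⟨?_, t, ht, rfl⟩), inf_le_right,
        inferInstance⟩
      refine PLocal.mem_pCore_of_forall_isPGroup_closure_conj fun g d => ⟨2, Subtype.ext ?_⟩
      obtain ⟨g, rfl⟩ := hs g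
      have t4 : π g * π t * (π g)⁻¹ * (π g * π t * (π g)⁻¹) = 1 := by simp [mul_assoc, ← mul_assoc (π t), t3]
      obtain ⟨k, e | e⟩ := (Inv.mem_closure_pair_iff t3 t4).1 d.2
      · rw [coe_pow, e, ← zpow_natCast, zpow_comm, zpow_natCast,
          show (π t * (π g * π t * (π g)⁻¹)) ^ 2 ^ 2 = 1 by simpa using hc g, one_zpow, coe_one]
      · rw [coe_pow, e, sq, pow_mul, sq (_ * _), Inv.pair_refl_mul_self t3 (Inv.pair_left_inv t3 t4), one_pow, coe_one]
    push Not at hc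
    obtain ⟨g, hg⟩ := hc
    have ha : t * (g * t * g⁻¹) ∈ N := mul_mem ht (hN.conj_mem t ht g)
    have e1 : π t * π (t * (g * t * g⁻¹)) * (π t)⁻¹ = (π (t * (g * t * g⁻¹)))⁻¹ := by
      rw [map_mul]
      exact Inv.pair_left_inv t3 (by simp [mul_assoc, ← mul_assoc (π t), t3])
    generalize t * (g * t * g⁻¹) = a at hg ha e1
    have e2 : π (a * (t * a * t⁻¹)⁻¹) ^ 2 ≠ 1 := by
      rwa [map_mul, map_inv, map_mul, map_mul, map_inv, e1, inv_inv, ← sq, ← pow_mul]
    have e3 : t * (a * (t * a * t⁻¹)⁻¹) * t⁻¹ = (a * (t * a * t⁻¹)⁻¹)⁻¹ := by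
      have := ((hk (t * t)).1 (by rw [map_mul, t3])).2 a ha
      calc _ = t * a * t⁻¹ * (t * t * (a * (t * t))⁻¹) := by rw [this]; group
        _ = _ := by group
    have hy := mul_mem ha (inv_mem (hN.conj_mem a ha t))
    generalize a * (t * a * t⁻¹)⁻¹ = y at e2 e3 hy
    have hn : (zpowers y).Normal := normalizer_eq_top_iff.1 ((h y hy fun e => e2 (by rw [(hk y).2 ⟨hy, e⟩, one_pow])).2 _
      (lt_of_le_of_ne (fun c hc => centralizer_le_normalizer _ (by rwa [zpowers_eq_closure, centralizer_closure]))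
        fun e => e2 ?_))
    · exact ⟨_, hn.map π hs, fun e => e2 (by rw [mem_bot.1 (e.le ⟨y, mem_zpowers y, rfl⟩), one_pow]),
        map_mono (zpowers_le.2 hy), by rw [MonoidHom.map_zpowers]; infer_instance⟩
    have : t ∈ centralizer {y} := e.ge (mem_normalizer_fintype fun _ ⟨k, hk⟩ => by
      rw [← hk, ← conj_zpow, e3]; exact zpow_mem (inv_mem (mem_zpowers y)) k)
    rw [mem_centralizer_singleton_iff.1 this, mul_inv_cancel_right, eq_inv_iff_mul_eq_one] at e3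
    rw [← map_pow, sq, e3, map_one]
  obtain ⟨M, hM, hMV⟩ := exists_isMinNormal_le hV h0
  obtain ⟨p, hp, hc, he⟩ := hM.isElementaryAbelian (Group.isSolvable_of_isSolvable_injective (inclusion_injective hMV))
  refine ⟨_, p, hp, isChiefFactor_comap_mk' hM, (comap_mono (hMV.trans h1)).trans (comap_map_eq_self ?_).le,
    fun a ha b hb => (hk _).1 ?_, fun a ha => (hk _).1 (by rw [map_pow, he _ ha])⟩
  · rw [QuotientGroup.ker_mk']; exact inf_le_left
  · rw [map_commutatorElement, commutatorElement_eq_one_iff_mul_comm]; exact setLike_mul_comm (s := M) ha hb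

theorem maxCent_struct {Q : Type*} [Group Q] (ρ : N →* Q) (hs : Function.Surjective ρ)
    (hk : ∀ x : N, ρ x = 1 ↔ x.1 ∈ centralizer (N : Set G)) :
    (∃ p : ℕ, p.Prime ∧ IsElementaryAbelian p (⊤ : Subgroup Q)) ∨ ∃ (H K : Subgroup Q) (p : ℕ), p.Prime ∧ (Nat.card H).Prime ∧
      K.Normal ∧ K ≠ ⊥ ∧ K ⊔ H = ⊤ ∧ (∀ x ∈ H, x ≠ 1 → K ⊓ centralizer {x} = ⊥) ∧ IsElementaryAbelian p K ∧
      ∀ L ≤ K, ((L.comap ρ).map N.subtype).Normal → L = ⊥ ∨ L = K := by
  by_cases hna : N ≤ centralizer (N : Set G)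
  · have : ∀ x : Q, x = 1 := fun x => by obtain ⟨x, rfl⟩ := hs x; exact (hk x).2 (hna x.2)
    exact Or.inl ⟨2, Nat.prime_two, ⟨⟨fun a b => Subtype.ext ((this _).trans (this _).symm)⟩⟩, fun _ _ => this _⟩
  obtain ⟨M, p, hp, ⟨hlt, hMn, -, hmin⟩, hMN, hc, he⟩ := maxCent_chief h hna
  set Z := N ⊓ centralizer (N : Set G)
  have hZ : ∀ y ∈ N, Z ≤ centralizer {y} := fun y hy z hz => mem_centralizer_singleton_iff.2 (hz.2 y hy).symm
  have co : ∀ y ∈ N, ¬ M ≤ centralizer {y} → IsCoatom (centralizer ({y} : Set G)) := fun y hy hM =>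
    h y hy fun e => hM fun m hm => mem_centralizer_singleton_iff.2 (e m (hMN hm))
  have dec : ∀ y ∈ N, ¬ M ≤ centralizer {y} → ∀ g, ∃ m ∈ M, ∃ c ∈ centralizer {y}, g = m * c := fun y hy hM g =>
    Transfer.exists_mul_of_mem_sup le_normalizer_of_normal ((sup_eq_top_of_isCoatom (co y hy hM) hM).ge (mem_top g))
  have nrm : ∀ y ∈ N, ¬ M ≤ centralizer {y} → ∀ K, Z ≤ K → K ≤ M → (∀ c ∈ centralizer {y}, ∀ k ∈ K, c * k * c⁻¹ ∈ K) →
      K = Z ∨ K = M := fun y hy hM K h1 h2 h3 => hmin K ⟨fun k hk g => by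
    obtain ⟨m, hm, c, hc', rfl⟩ := dec y hy hM g
    simpa [commutatorElement_def, mul_assoc] using mul_mem (h1 (hc m hm _ (h2 (h3 c hc' k hk)))) (h3 c hc' k hk)⟩ h1 h2
  have cM : ∀ y ∈ N, ¬ M ≤ centralizer {y} → M ⊓ centralizer {y} ≤ Z := fun y hy hM =>
    ((nrm y hy hM _ (le_inf hlt.le (hZ y hy)) inf_le_left fun c hc k hk =>
      mem_inf.2 ⟨hMn.conj_mem k hk.1 c, mul_mem (mul_mem hc hk.2) (inv_mem hc)⟩).resolve_right fun e => hM (inf_eq_left.1 e)).le
  have ab : ∀ x ∈ M, M ≤ centralizer {x} := fun x hx => by_contra fun hM => hM fun m hm =>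
    mem_centralizer_singleton_iff.2 ((cM x (hMN hx) hM ⟨hx, mem_centralizer_singleton_iff.2 rfl⟩).2 m (hMN hm))
  have cm : ∀ m d y : G, d ∈ centralizer {y} → ⁅m * d, y⁆ = ⁅m, y⁆ := fun m d y hd => by
    rw [commutatorElement_def, mul_assoc m, mem_centralizer_singleton_iff.1 hd, commutatorElement_def]; group
  obtain ⟨x, hx, hxZ⟩ := SetLike.exists_of_lt hlt
  by_cases hB : ∀ y ∈ N, ∀ m ∈ M, ⁅m, y⁆ ∈ Z
  · have key : ∀ y : N, ¬ M ≤ centralizer {y.1} → ρ y ∈ center Q ∧ ρ y ^ p = 1 := fun y hy => by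
      refine ⟨mem_center_iff.2 fun g => ?_, ?_⟩
      · obtain ⟨g, rfl⟩ := hs g
        obtain ⟨m, hm, c, hc, e⟩ := dec y y.2 hy g
        rw [← commutatorElement_eq_one_iff_mul_comm, ← map_commutatorElement, hk]
        exact (show ⁅g.1, y.1⁆ ∈ Z by rw [e, cm m c y hc]; exact hB y y.2 m hm).2
      rw [← map_pow, hk]
      intro g _
      obtain ⟨m, hm, c, hc, rfl⟩ := dec y y.2 hy g
      have h1 := (hB y y.2 m hm).2
      have h2 : ∀ k : ℕ, m ^ k * y * (m ^ k)⁻¹ = ⁅m, y.1⁆ ^ k * y ∧ m * y ^ k * m⁻¹ = ⁅m, y.1⁆ ^ k * y ^ k := fun k => by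
        refine ⟨?_, by rw [← conj_pow, ← Commute.mul_pow (h1 y y.2).symm, commutatorElement_def, inv_mul_cancel_right]⟩
        induction k with
        | zero => simp
        | succ k ih =>
          calc _ = m * (m ^ k * y * (m ^ k)⁻¹) * m⁻¹ := by rw [pow_succ']; group
            _ = ⁅m, y.1⁆ ^ k * (m * y * m⁻¹) := by rw [ih, ← mul_assoc, pow_mem h1 k m (hMN hm)]; group
            _ = _ := by rw [pow_succ, mul_assoc _ ⁅m, y.1⁆, commutatorElement_def m, inv_mul_cancel_right]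
      have h3 := (h2 p).1
      rw [← (he m hm).2 y y.2, mul_inv_cancel_right, eq_comm, mul_eq_right] at h3
      have h4 := (h2 p).2
      rw [h3, one_mul, mul_inv_eq_iff_eq_mul] at h4
      rw [coe_pow, mul_assoc, (show Commute c y from mem_centralizer_singleton_iff.1 hc).pow_right, ← mul_assoc, h4, mul_assoc]
    obtain ⟨y, hy⟩ : ∃ y : N, ¬ M ≤ centralizer {y.1} := by
      by_contra! hh
      exact hxZ ⟨hMN hx, fun y hy => (mem_centralizer_singleton_iff.1 (hh ⟨y, hy⟩ hx)).symm⟩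
    have key' : ∀ a : Q, a ∈ center Q ∧ a ^ p = 1 := fun a => by
      obtain ⟨a, rfl⟩ := hs a
      refine by_contra fun hh => hy fun m hm => mem_centralizer_singleton_iff.2 ?_
      have h1 := not_not.1 (mt (key a) hh) hm
      have h2 := not_not.1 (mt (key (a * y)) fun ⟨e1, e2⟩ => hh (by
        rw [map_mul] at e1 e2
        rw [Commute.mul_pow (mem_center_iff.1 (key y hy).1 _), (key y hy).2, mul_one] at e2
        exact ⟨(mul_mem_cancel_right (key y hy).1).1 e1, e2⟩)) hm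
      exact mul_left_cancel (a := a.1) (by rw [← mul_assoc, ← mem_centralizer_singleton_iff.1 h1, mul_assoc, ← mul_assoc a.1]
                                           exact mem_centralizer_singleton_iff.1 h2)
    exact Or.inl ⟨p, hp, ⟨⟨fun a b => Subtype.ext (mem_center_iff.1 (key' b).1 a)⟩⟩, fun a _ => (key' a).2⟩
  push Not at hB
  obtain ⟨y, hy, m₀, hm₀, hB⟩ := hB
  have hM : ¬ M ≤ centralizer {y} := fun e => hB (by
    rw [commutatorElement_eq_one_iff_mul_comm.2 (mem_centralizer_singleton_iff.1 (e hm₀))]; exact one_mem _)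
  have cN : ∀ m ∈ M, ⁅m, y⁆ ∈ M := fun m hm => by
    simpa [commutatorElement_def, mul_assoc] using mul_mem hm (hMn.conj_mem _ (inv_mem hm) y)
  have fpf : ∀ m ∈ M, ⁅m, y⁆ ∈ Z → m ∈ Z := by
    have hk' : ∀ m, m ∈ (centralizer {QuotientGroup.mk' Z y}).comap (QuotientGroup.mk' Z) ↔ ⁅m, y⁆ ∈ Z := fun m => by
      rw [mem_comap, mem_centralizer_singleton_iff, ← commutatorElement_eq_one_iff_mul_comm, ← map_commutatorElement]
      exact QuotientGroup.eq_one_iff _
    have h1 : centralizer {y} ≤ (centralizer {QuotientGroup.mk' Z y}).comap (QuotientGroup.mk' Z) := fun c hc => (hk' c).2 (by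
      rw [commutatorElement_eq_one_iff_mul_comm.2 (mem_centralizer_singleton_iff.1 hc)]; exact one_mem _)
    exact fun m hm e => ((nrm y hy hM (M ⊓ _) (le_inf hlt.le ((hZ y hy).trans h1)) inf_le_left fun c hc k hk =>
      mem_inf.2 ⟨hMn.conj_mem k hk.1 c, mul_mem (mul_mem (h1 hc) hk.2) (inv_mem (h1 hc))⟩).resolve_right
        fun e => hB ((hk' _).1 (e.ge hm₀).2)).le ⟨hm, (hk' m).2 e⟩
  have c1 : ∀ c ∈ N, c ∈ centralizer {y} → M ≤ centralizer {c} → c ∈ Z := fun c hcN hc hcM => by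
    have h1 : ¬ M ≤ centralizer {c * y} := fun e => hM fun m hm => mem_centralizer_singleton_iff.2 (mul_left_cancel (a := c) (by
      rw [← mul_assoc, ← mem_centralizer_singleton_iff.1 (hcM hm), mul_assoc, ← mul_assoc c]
      exact mem_centralizer_singleton_iff.1 (e hm)))
    have h2 : y ∈ centralizer {c * y} := mem_centralizer_singleton_iff.2 (by
      rw [← mul_assoc, ← mem_centralizer_singleton_iff.1 hc])
    have h3 : centralizer {c * y} ≤ centralizer {y} := fun g hg => by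
      obtain ⟨m, hm, d, hd, rfl⟩ := dec y hy hM g
      refine mul_mem (hZ y hy (fpf m hm (cM _ (mul_mem hcN hy) h1 (mem_inf.2 ⟨cN m hm, ?_⟩)))) hd
      rw [← cm m d y hd]
      exact mul_mem (mul_mem (mul_mem hg h2) (inv_mem hg)) (inv_mem h2)
    have h4 := ((co _ (mul_mem hcN hy) h1).le_iff.1 h3).resolve_left (co y hy hM).1
    refine ⟨hcN, fun g _ => ?_⟩
    obtain ⟨m, hm, d, hd, rfl⟩ := dec y hy hM g
    have : d * c = c * d := mul_right_cancel (b := y) (by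
      rw [mul_assoc, mem_centralizer_singleton_iff.1 (h4.le hd), mul_assoc, mul_assoc, mem_centralizer_singleton_iff.1 hd])
    rw [mul_assoc, this, ← mul_assoc, mem_centralizer_singleton_iff.1 (hcM hm), mul_assoc]
  have hxc := h x (hMN hx) fun e => hxZ ⟨hMN hx, e⟩
  have hyx : y ∉ centralizer {x} := fun e =>
    hxZ (cM y hy hM ⟨hx, mem_centralizer_singleton_iff.2 (mem_centralizer_singleton_iff.1 e).symm⟩)
  have hCn : (centralizer ({x} : Set G)).Normal := normalizer_eq_top_iff.1 (hxc.2 _ (lt_of_le_of_ne le_normalizer fun e =>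
    hyx (e.ge (mem_normalizer_fintype fun g hg => by
      obtain ⟨m, hm, d, hd, rfl⟩ := dec y hy hM g
      have := mul_mem (inv_mem (ab x hx (cN m hm))) hg
      rw [← cm m d y hd] at this
      simpa [commutatorElement_def, mul_assoc] using this))))
  have c2 : N ⊓ centralizer {x} = M := by
    have h1 := (hmin (M ⊓ centralizer ((N ⊓ centralizer {x} : Subgroup G) : Set G)) inferInstance
      (le_inf hlt.le (inf_le_right.trans (centralizer_le inf_le_left))) inf_le_left).resolve_left fun e =>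
        hxZ (e.le ⟨hx, fun g hg => mem_centralizer_singleton_iff.1 hg.2⟩)
    refine le_antisymm (fun g hg => ?_) (le_inf hMN (ab x hx))
    obtain ⟨m, hm, d, hd, rfl⟩ := dec y hy hM g
    exact mul_mem hm (hlt.le (c1 d ((mul_mem_cancel_left (hMN hm)).1 hg.1) hd fun k hk => mem_centralizer_singleton_iff.2
      ((h1.ge hk).2 d ⟨(mul_mem_cancel_left (hMN hm)).1 hg.1, (mul_mem_cancel_left (ab x hx hm)).1 hg.2⟩).symm))
  have : Finite Q := Finite.of_surjective ρ hs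
  have hker : ∀ X : Subgroup G, Z ≤ X → ρ.ker ≤ X.subgroupOf N := fun X hX a ha => hX ⟨a.2, (hk a).1 ha⟩
  have hKn : ((M.subgroupOf N).map ρ).Normal := Normal.map inferInstance ρ hs
  have hsup : (M.subgroupOf N).map ρ ⊔ ((centralizer {y}).subgroupOf N).map ρ = ⊤ := eq_top_iff.2 fun a _ => by
    obtain ⟨a, rfl⟩ := hs a
    obtain ⟨m, hm, d, hd, e⟩ := dec y hy hM a
    rw [show a = ⟨m, hMN hm⟩ * ⟨d, (mul_mem_cancel_left (hMN hm)).1 (e ▸ a.2)⟩ from Subtype.ext e, map_mul]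
    exact mul_mem_sup ⟨_, hm, rfl⟩ ⟨_, hd, rfl⟩
  have hq : (Nat.card (((centralizer {y}).subgroupOf N).map ρ)).Prime := by
    rw [← (isComplement'_of_inf_eq_bot (eq_bot_iff.2 ?_) hsup).symm.index_eq_card, index_map_eq _ hs (hker M hlt.le), ← relIndex,
      ← c2, inf_relIndex_left, ← relIndex_sup_left, sup_comm, sup_eq_top_of_isCoatom hxc fun e => hyx (e hy), relIndex_top_right]
    · exact index_prime_of_isCoatom hxc
    rintro _ ⟨⟨a, ha, rfl⟩, hb⟩
    exact (hk a).2 (cM y hy hM ⟨ha, (comap_map_eq_self (hker _ (hZ y hy))).le hb⟩).2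
  refine Or.inr ⟨_, _, p, hp, hq, hKn, fun e => hxZ ⟨hMN hx, (hk ⟨x, hMN hx⟩).1 (e.le ⟨_, hx, rfl⟩)⟩, hsup,
    fun u hu u1 => eq_bot_iff.2 ?_, ⟨⟨⟨?_⟩⟩, ?_⟩, fun L hL hn => ?_⟩
  · rintro _ ⟨⟨a, ha, rfl⟩, hb⟩
    have := Fact.mk hq
    obtain ⟨j, hj⟩ := mem_zpowers_of_prime_card (G := ((centralizer {y}).subgroupOf N).map ρ) rfl (g := ⟨u, hu⟩)
      (g' := ⟨ρ ⟨y, hy⟩, _, mem_centralizer_singleton_iff.2 rfl, rfl⟩) fun e => u1 (congrArg Subtype.val e)
    refine (hk a).2 (fpf a ha ⟨⁅a, (⟨y, hy⟩ : N)⁆.2, (hk ⁅a, ⟨y, hy⟩⁆).1 ?_⟩).2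
    rw [map_commutatorElement, commutatorElement_eq_one_iff_mul_comm, ← show u ^ j = ρ ⟨y, hy⟩ from congrArg Subtype.val hj]
    exact (show Commute (ρ a) u from mem_centralizer_singleton_iff.1 hb).zpow_right j
  · rintro ⟨_, a, ha, rfl⟩ ⟨_, b, hb, rfl⟩
    exact Subtype.ext ((map_mul ρ a b).symm.trans ((congrArg ρ (Subtype.ext (mem_centralizer_singleton_iff.1
      (ab b hb ha)))).trans (map_mul ρ b a)))
  · rintro _ ⟨a, ha, rfl⟩
    exact (map_pow ρ a p).symm.trans ((hk _).2 (he a ha).2)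
  · refine (hmin _ hn (fun z hz => ⟨⟨z, hz.1⟩, by simp [(hk ⟨z, hz.1⟩).2 hz.2], rfl⟩) (by
      rintro _ ⟨a, ha, rfl⟩; exact (comap_map_eq_self (hker M hlt.le)).le (hL ha))).imp (fun e => eq_bot_iff.2 fun a ha => ?_)
      fun e => le_antisymm hL ?_
    · obtain ⟨a, rfl⟩ := hs a
      exact (hk a).2 (e.le ⟨a, ha, rfl⟩).2
    · rintro _ ⟨a, ha, rfl⟩
      obtain ⟨b, hb, e⟩ := e.ge ha
      exact Subtype.ext e ▸ hb

end Cfsg.Lib.Misc
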